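import Cfsg.Agent.H139.Cusp.Bridge
import Cfsg.Agent.H646.RegInner
import Cfsg.Agent.Blocks.PrincipalSection

/-!
# S4933: the cuspidal character of `GL_n(q)`, `n = ord_p(q)`, of a character of `p`-power order
-/

set_option autoImplicit false
set_option linter.unusedSectionVars false

open Polynomial Cfsg
open scoped ComplexConjugate

namespace Cfsg.Agent.H551.HT

open Cfsg.Agent.H139.Cusp

universe u v w

attribute [local instance] fintypeHom fintypeSub finite_quot

section block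

open Cfsg.Agent.Blocks Cfsg.Agent.Blocks.Basic Cfsg.Agent.Characters Cfsg.Agent.Blocks.PrincipalSection
open Cfsg.Agent.Blocks.Local

variable {p : ℕ} {𝔐 : Ideal AlgInt} {G : Type u} [Group G] [Finite G]

omit [Finite G] in
/-- a character with non zero sum over the `p`-regular elements is in the principal block -/
theorem mem_of_pReg (h𝔐 : IsPModular p 𝔐) [Fintype G] {χ : IrrCharacter G}
    (h : classInner (χ : G → ℂ) (pRegularPart p (fun _ => 1)) ≠ 0) : χ ∈ principalBlock 𝔐 G := by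
  have hp : p.Prime := h𝔐.1
  have : Fact p.Prime := ⟨hp⟩
  have := isPrime_of_isPModular h𝔐
  by_contra hχ
  apply h
  have h1 := Cfsg.Agent.H646.RegInner.classInner_pRegularPart_eq_zero h𝔐
    isPBlock_principalBlock
    (one_mem_principalBlock : (⟨fun _ => 1, isIrrCharacter_one⟩ : IrrCharacter G) ∈ _) hχ
  rw [classInner_def] at h1 ⊢
  have h2 := congrArg (starRingEnd ℂ) h1
  rw [map_zero, map_mul, map_sum, map_inv₀, Complex.conj_natCast] at h2
  rw [← h2]
  congr 1
  refine Finset.sum_congr rfl fun g _ => ?_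
  rw [map_mul, Complex.conj_conj, mul_comm]

end block

/-! ### elements of order divisible by `p` -/

section sing

variable {F : Type u} [Field F]

theorem dvd_pow_of_factors (h : F[X]) (m : ℕ) : ∀ c : F[X], c.Monic → c.natDegree = m →
    (∀ f : F[X], f.Monic → Irreducible f → f ∣ c → f ∣ h) → c ∣ h ^ m := by
  induction m using Nat.strong_induction_on with
  | _ m ih =>
    intro c hc hdeg hf
    rcases Nat.eq_zero_or_pos m with h0 | h0
    · have : c = 1 := eq_one_of_monic_natDegree_zero hc (hdeg.trans h0)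
      rw [this]
      exact one_dvd _
    · have hnu : ¬ IsUnit c := by
        intro h1
        rw [hc.isUnit_iff] at h1
        rw [h1, natDegree_one] at hdeg
        omega
      obtain ⟨f, hfm, hirr, d, hd⟩ := exists_monic_irreducible_factor c hnu
      have hdm : d.Monic := by
        rw [hd] at hc
        exact hfm.of_mul_monic_left hc
      have hdd : f.natDegree + d.natDegree = m := by rw [← hdeg, hd, hfm.natDegree_mul hdm]
      have hfp := hirr.natDegree_pos
      have h1 := ih d.natDegree (by omega) d hdm rfl fun f' hm' hi' hd' =>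
        hf f' hm' hi' (hd ▸ (hd'.trans (dvd_mul_left _ _)))
      have h2 := hf f hfm hirr (hd ▸ dvd_mul_right _ _)
      rw [hd]
      calc f * d ∣ h * h ^ d.natDegree := mul_dvd_mul h2 h1
        _ = h ^ (d.natDegree + 1) := by rw [pow_succ, mul_comm]
        _ ∣ h ^ m := pow_dvd_pow _ (by omega)

variable [Finite F] {V : Type v} [AddCommGroup V] [Module F V] [Finite V]

theorem not_dvd_pow_sub_one {p : ℕ} [Fact p.Prime] {q n d : ℕ} (hq : 0 < q) (hord : orderOf (q : ZMod p) = n)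
    (hd : 0 < d) (hdn : d < n) : ¬ p ∣ q ^ d - 1 := by
  intro h
  have h1 : ((q ^ d - 1 : ℕ) : ZMod p) = 0 := (ZMod.natCast_eq_zero_iff _ _).2 h
  rw [Nat.cast_sub (Nat.one_le_pow _ _ hq)] at h1
  push_cast at h1
  have h2 := orderOf_dvd_of_pow_eq_one (sub_eq_zero.1 h1)
  rw [hord] at h2
  exact absurd (Nat.le_of_dvd hd h2) (by omega)

/-- an element of order divisible by `p` is irreducible if the dimension is the order of `q` modulo `p` -/
theorem irreducible_charpoly {p : ℕ} [hp : Fact p.Prime] (hpF : ¬ p ∣ Nat.card F)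
    (hord : orderOf (Nat.card F : ZMod p) = Module.finrank F V) (g : (V →ₗ[F] V)ˣ) (hg : p ∣ orderOf g) :
    Irreducible (g : V →ₗ[F] V).charpoly := by
  classical
  set n := Module.finrank F V with hn
  have hq : 1 < Nat.card F := Finite.one_lt_card
  have hn0 : 0 < n := by
    rcases Nat.eq_zero_or_pos n with h | h
    · exfalso
      have hs : Subsingleton V := Module.finrank_zero_iff.1 (hn ▸ h)
      have h1 : g = 1 := Units.ext (LinearMap.ext fun v => Subsingleton.elim _ _)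
      rw [h1, orderOf_one] at hg
      exact hp.1.one_lt.ne' (Nat.dvd_one.1 hg)
    · exact h
  have hnt : Nontrivial V := Module.nontrivial_of_finrank_pos (R := F) (hn ▸ hn0)
  by_contra hirr
  have hcm := LinearMap.charpoly_monic (g : V →ₗ[F] V)
  have hcd := LinearMap.charpoly_natDegree (g : V →ₗ[F] V)
  -- all irreducible factors have small degree
  let N := ∏ d ∈ Finset.Ico 1 n, (Nat.card F ^ d - 1)
  have hNp : ¬ p ∣ N := by
    intro h
    rw [hp.1.prime.dvd_finsetProd_iff] at h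
    obtain ⟨d, hd, h⟩ := h
    rw [Finset.mem_Ico] at hd
    exact not_dvd_pow_sub_one (by omega) hord (by omega) hd.2 h
  have hc0 : (g : V →ₗ[F] V).charpoly.coeff 0 ≠ 0 := (isUnit_iff_coeff _).1 g.isUnit
  have hfac : ∀ f : F[X], f.Monic → Irreducible f → f ∣ (g : V →ₗ[F] V).charpoly → f ∣ X ^ N - 1 := by
    intro f hf hfi hfd
    obtain ⟨c, hc⟩ := hfd
    have hcmon : c.Monic := by
      rw [hc] at hcm
      exact hf.of_mul_monic_left hcm
    have hdeg : f.natDegree + c.natDegree = n := by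
      rw [← hf.natDegree_mul hcmon, ← hc, hcd]
    have hlt : f.natDegree < n := by
      by_contra hlt
      have h1 : c = 1 := eq_one_of_monic_natDegree_zero hcmon (by omega)
      rw [h1, mul_one] at hc
      exact hirr (hc ▸ hfi)
    have hpos := hfi.natDegree_pos
    have h1 : f ∣ X ^ (Nat.card F ^ f.natDegree) - X :=
      hfi.natDegree_dvd_iff_dvd_X_pow_card_pow_sub_X.1 dvd_rfl
    have h2 : (X ^ (Nat.card F ^ f.natDegree) - X : F[X]) = X * (X ^ (Nat.card F ^ f.natDegree - 1) - 1) := by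
      have h3 : 1 ≤ Nat.card F ^ f.natDegree := Nat.one_le_pow _ _ (by omega)
      rw [mul_sub, mul_one, ← pow_succ', Nat.sub_add_cancel h3]
    rw [h2] at h1
    rcases hfi.prime.dvd_or_dvd h1 with h3 | h3
    · exfalso
      apply hc0
      have h4 : (X : F[X]) ∣ (g : V →ₗ[F] V).charpoly := by
        have h5 : Associated f X := (hfi.dvd_irreducible_iff_associated irreducible_X).1 h3
        exact h5.symm.dvd.trans (hc ▸ dvd_mul_right _ _)
      exact X_dvd_iff.1 h4
    · refine h3.trans ?_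
      have h4 : (Nat.card F ^ f.natDegree - 1) ∣ N := Finset.dvd_prod_of_mem _ (Finset.mem_Ico.2 ⟨hpos, hlt⟩)
      obtain ⟨k, hk⟩ := h4
      rw [hk, pow_mul]
      exact sub_one_dvd_pow_sub_one _ _
  have h1 := dvd_pow_of_factors _ n _ hcm hcd hfac
  have h2 : aeval (g : V →ₗ[F] V) ((X ^ N - 1 : F[X]) ^ n) = 0 := by
    obtain ⟨c, hc⟩ := h1
    rw [hc, map_mul, LinearMap.aeval_self_charpoly, zero_mul]
  obtain ⟨r, hr⟩ := CharP.exists F
  have hrp : r.Prime := CharP.char_is_prime F r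
  have : Fact r.Prime := ⟨hrp⟩
  have hrF : r ∣ Nat.card F := by
    have : Fintype F := Fintype.ofFinite F
    obtain ⟨m, -, hm⟩ := FiniteField.card F r
    rw [Nat.card_eq_fintype_card, hm]
    exact dvd_pow_self r m.ne_zero
  have hcE : CharP (V →ₗ[F] V) r := charP_of_injective_algebraMap
    (R := F) (A := Module.End F V) (FaithfulSMul.algebraMap_injective F (Module.End F V)) r
  rw [map_pow, map_sub, map_pow, aeval_X, map_one] at h2
  have h3 : ((g : V →ₗ[F] V) ^ N - 1) ^ r ^ n = 0 := by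
    have h4 : n ≤ r ^ n := (Nat.lt_pow_self hrp.one_lt).le
    exact pow_eq_zero_of_le h4 h2
  have h4 : (g : V →ₗ[F] V) ^ (N * r ^ n) = 1 := by
    have h5 : ((g : V →ₗ[F] V) ^ N - 1) ^ r ^ n = ((g : V →ₗ[F] V) ^ N) ^ r ^ n - 1 ^ r ^ n :=
      sub_pow_char_pow_of_commute (R := Module.End F V) r n (Commute.one_right _)
    rw [h5, one_pow, sub_eq_zero, ← pow_mul] at h3
    exact h3
  have h5 : g ^ (N * r ^ n) = 1 := Units.ext (by rw [Units.val_pow_eq_pow_val]; exact h4)
  have h6 := hg.trans (orderOf_dvd_of_pow_eq_one h5)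
  rcases hp.1.dvd_mul.1 h6 with h7 | h7
  · exact hNp h7
  · have h8 := (Nat.prime_dvd_prime_iff_eq hp.1 hrp).1 (hp.1.dvd_of_dvd_pow h7)
    exact hpF (h8 ▸ hrF)

end sing

/-! ### maps of `p`-power order -/

section theta

/-- the trivial multiplicative map -/
noncomputable def oneTheta (L : Type w) [Field L] : L →*₀ ℂ where
  toFun x := by classical exact if x = 0 then 0 else 1
  map_zero' := if_pos rfl
  map_one' := if_neg one_ne_zero
  map_mul' x y := by
    classical
    show (if x * y = 0 then (0 : ℂ) else 1) = (if x = 0 then 0 else 1) * (if y = 0 then 0 else 1)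
    by_cases hx : x = 0
    · rw [if_pos hx, if_pos (by rw [hx, zero_mul]), zero_mul]
    · by_cases hy : y = 0
      · rw [if_pos hy, if_pos (by rw [hy, mul_zero]), mul_zero]
      · rw [if_neg hx, if_neg hy, if_neg (mul_ne_zero hx hy), one_mul]

theorem oneTheta_apply {L : Type w} [Field L] {x : L} (hx : x ≠ 0) : oneTheta L x = 1 := if_neg hx

variable {F : Type u} [Field F] [Finite F] {V : Type v} [AddCommGroup V] [Module F V] [Finite V]
variable {L : Type w} [Field L] [Finite L] [Algebra F L]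

/-- a root of the characteristic polynomial is killed by the order -/
theorem root_pow_orderOf (g : (V →ₗ[F] V)ˣ) {f : F[X]} (hirr : Irreducible f)
    (hd : f ∣ (g : V →ₗ[F] V).charpoly) {l : L} (hl : aeval l f = 0) {m : ℕ} (hm : g ^ m = 1) : l ^ m = 1 := by
  have h1 : aeval (g : V →ₗ[F] V) (X ^ m - 1 : F[X]) = 0 := by
    rw [map_sub, map_pow, aeval_X, map_one, ← Units.val_pow_eq_pow_val, hm, Units.val_one, sub_self]
  have h2 : minpoly F (g : V →ₗ[F] V) ∣ X ^ m - 1 := minpoly.dvd _ _ h1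
  have h3 : f ∣ minpoly F (g : V →ₗ[F] V) := by
    have h4 := ker_aeval_ne_bot hirr hd
    by_contra h5
    have h6 : IsCoprime f (minpoly F (g : V →ₗ[F] V)) := (hirr.coprime_iff_not_dvd).2 h5
    apply h4
    obtain ⟨a, b, hab⟩ := h6
    rw [Submodule.eq_bot_iff]
    intro x hx
    have h7 := congrArg (fun p => aeval (g : V →ₗ[F] V) p x) hab
    simp only [map_add, map_mul, minpoly.aeval, mul_zero, add_zero, map_one] at h7
    rw [Module.End.mul_apply, LinearMap.mem_ker.1 hx, map_zero] at h7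
    exact h7.symm
  obtain ⟨c, hc⟩ := h3.trans h2
  have h4 : aeval l (X ^ m - 1 : F[X]) = 0 := by rw [hc, map_mul, hl, zero_mul]
  rw [map_sub, map_pow, aeval_X, map_one, sub_eq_zero] at h4
  exact h4

/-- on roots of `p`-regular elements a map of `p`-power order is trivial -/
theorem theta_root {p : ℕ} [hp : Fact p.Prime] {θ : L →*₀ ℂ} {k : ℕ} (hθ : ∀ x, x ≠ 0 → θ x ^ p ^ k = 1)
    (g : (V →ₗ[F] V)ˣ) (hg : ¬ p ∣ orderOf g) {f : F[X]} (hirr : Irreducible f)
    (hd : f ∣ (g : V →ₗ[F] V).charpoly) {l : L} (hl : aeval l f = 0) : θ l = 1 := by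
  have hfe : Finite (V →ₗ[F] V) := DFunLike.finite _
  have h1 := root_pow_orderOf g hirr hd hl (pow_orderOf_eq_one g)
  have h0 : l ≠ 0 := by
    rintro rfl
    rw [zero_pow (orderOf_pos g).ne'] at h1
    exact zero_ne_one h1
  have h2 := hθ l h0
  have h3 : θ l ^ orderOf g = 1 := by rw [← map_pow, h1, map_one]
  have h4 : (p ^ k).Coprime (orderOf g) := Nat.Coprime.pow_left _ ((Nat.Prime.coprime_iff_not_dvd hp.1).2 hg)
  have h5 := pow_gcd_eq_one.2 ⟨h2, h3⟩
  rwa [h4, pow_one] at h5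

/-- **On `p`-regular elements** all the maps of `p`-power order give the same values. -/
theorem cusp_pRegular {p : ℕ} [hp : Fact p.Prime] {θ θ' : L →*₀ ℂ} {k : ℕ}
    (hθ : ∀ x, x ≠ 0 → θ x ^ p ^ k = 1) (hθ' : ∀ x, x ≠ 0 → θ' x ^ p ^ k = 1)
    (g : (V →ₗ[F] V)ˣ) (hg : ¬ p ∣ orderOf g) :
    cusp L θ (g : V →ₗ[F] V) = cusp L θ' (g : V →ₗ[F] V) := by
  have hlb : ∀ f : F[X], f.Monic → Irreducible f → f ∣ (g : V →ₗ[F] V).charpoly → lb L θ f = lb L θ' f := by
    intro f hf hirr hd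
    rw [lb, lb]
    congr 1
    refine Multiset.map_congr rfl fun l hl => ?_
    rw [mem_roots (hf.map _).ne_zero, IsRoot.def, eval_map_algebraMap] at hl
    rw [theta_root hθ g hg hirr hd hl, theta_root hθ' g hg hirr hd hl]
  rcases subsingleton_or_nontrivial V with hs | hnt
  · have h1 : (⊤ : Submodule F V) = ⊥ := Subsingleton.elim _ _
    rw [cusp, cusp, h1, kap_bot _ (lb_mul L θ), kap_bot _ (lb_mul L θ')]
  · have key : ∀ f m, f.Monic → Irreducible f → 0 < m → (g : V →ₗ[F] V).charpoly = f ^ m →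
        cusp L θ (g : V →ₗ[F] V) = cusp L θ' (g : V →ₗ[F] V) := by
      intro f m hf hirr hm hfm
      have hd : f ∣ (g : V →ₗ[F] V).charpoly := by rw [hfm]; exact dvd_pow_self f hm.ne'
      obtain ⟨k, hk⟩ := exists_finrank_ker hirr hd
      rw [cusp_formula L θ hf hirr hfm hk, cusp_formula L θ' hf hirr hfm hk, hlb f hf hirr hd]
    rcases cusp_eq_zero_or L θ (g : V →ₗ[F] V) with ⟨f, m, hf, hirr, hm, hfm⟩ | h0
    · exact key f m hf hirr hm hfm
    · rcases cusp_eq_zero_or L θ' (g : V →ₗ[F] V) with ⟨f, m, hf, hirr, hm, hfm⟩ | h0'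
      · exact key f m hf hirr hm hfm
      · rw [h0, h0']

/-! ### singular elements -/

theorem sum_multiset_map {ι : Type*} {α : Type*} (s : Finset ι) (M : Multiset α) (f : ι → α → ℂ) :
    ∑ j ∈ s, (M.map (f j)).sum = (M.map fun l => ∑ j ∈ s, f j l).sum := by
  induction M using Multiset.induction_on with
  | empty => simp
  | cons a M ih => simp only [Multiset.map_cons, Multiset.sum_cons, Finset.sum_add_distrib, ih]

/-- the exponent of the `p`-part -/
noncomputable def expo (L : Type w) [Field L] (p : ℕ) : ℕ := (Nat.card Lˣ).factorization p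

/-- the `p'`-part of the order of the multiplicative group -/
noncomputable def pprime (L : Type w) [Field L] (p : ℕ) : ℕ := Nat.card Lˣ / p ^ expo L p

theorem expo_mul_pprime (p : ℕ) : p ^ expo L p * pprime L p = Nat.card Lˣ := Nat.ordProj_mul_ordCompl_eq_self _ _

theorem pprime_ne_zero (p : ℕ) : pprime L p ≠ 0 := by
  intro h
  have h1 := expo_mul_pprime (L := L) p
  rw [h, mul_zero] at h1
  exact Nat.card_pos.ne h1

theorem not_dvd_pprime {p : ℕ} (hp : p.Prime) : ¬ p ∣ pprime L p := Nat.not_dvd_ordCompl hp Nat.card_pos.ne'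

theorem pow_card_units {x : L} (hx : x ≠ 0) : x ^ Nat.card Lˣ = 1 := by
  have h3 : (Units.mk0 x hx) ^ Nat.card Lˣ = 1 := pow_card_eq_one'
  have h4 := congrArg Units.val h3
  rwa [Units.val_pow_eq_pow_val, Units.val_mk0, Units.val_one] at h4

/-- all the maps of `p`-power order -/
noncomputable def pTheta (θ₀ : L →*₀ ℂ) (p : ℕ) [hp : Fact p.Prime] (j : ℕ) : L →*₀ ℂ :=
  powTheta θ₀ (pprime L p * (j + p ^ expo L p))
    (mul_ne_zero (pprime_ne_zero p) (by have := hp.1.pos; have := Nat.pow_pos (n := expo L p) this; omega))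

theorem pTheta_apply (θ₀ : L →*₀ ℂ) (p : ℕ) [hp : Fact p.Prime] (j : ℕ) (x : L) :
    pTheta θ₀ p j x = (θ₀ x ^ pprime L p) ^ (j + p ^ expo L p) := by
  rw [pTheta, powTheta_apply, pow_mul]

theorem base_pow (θ₀ : L →*₀ ℂ) (p : ℕ) {x : L} (hx : x ≠ 0) : (θ₀ x ^ pprime L p) ^ p ^ expo L p = 1 := by
  rw [← pow_mul, mul_comm, expo_mul_pprime, ← map_pow, pow_card_units hx, map_one]

theorem pTheta_apply' (θ₀ : L →*₀ ℂ) (p : ℕ) [hp : Fact p.Prime] (j : ℕ) {x : L} (hx : x ≠ 0) :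
    pTheta θ₀ p j x = (θ₀ x ^ pprime L p) ^ j := by
  rw [pTheta_apply, pow_add, base_pow θ₀ p hx, mul_one]

theorem pTheta_pow (θ₀ : L →*₀ ℂ) (p : ℕ) [hp : Fact p.Prime] (j : ℕ) (x : L) (hx : x ≠ 0) :
    pTheta θ₀ p j x ^ p ^ expo L p = 1 := by
  rw [pTheta_apply' θ₀ p j hx, ← pow_mul, mul_comm, pow_mul, base_pow θ₀ p hx, one_pow]

/-- the values at a root of a singular element -/
theorem base_root {θ₀ : L →*₀ ℂ} (hθ₀ : Function.Injective θ₀) {p : ℕ} [hp : Fact p.Prime]
    (g : (V →ₗ[F] V)ˣ) (hg : p ∣ orderOf g) (hirr : Irreducible (g : V →ₗ[F] V).charpoly)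
    {l : L} (hl : aeval l (g : V →ₗ[F] V).charpoly = 0) : θ₀ l ^ pprime L p ≠ 1 := by
  intro h
  rw [← map_pow, ← map_one θ₀] at h
  have h1 := hθ₀ h
  have h2 : (g : V →ₗ[F] V).charpoly = minpoly F l :=
    minpoly.eq_of_irreducible_of_monic hirr hl (LinearMap.charpoly_monic _)
  have h3 : minpoly F l ∣ X ^ pprime L p - 1 := by
    apply minpoly.dvd
    rw [map_sub, map_pow, aeval_X, map_one, h1, sub_self]
  rw [← h2] at h3
  obtain ⟨c, hc⟩ := h3
  have h4 : aeval (g : V →ₗ[F] V) (X ^ pprime L p - 1 : F[X]) = 0 := by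
    rw [hc, map_mul, LinearMap.aeval_self_charpoly, zero_mul]
  rw [map_sub, map_pow, aeval_X, map_one, sub_eq_zero] at h4
  have h5 : g ^ pprime L p = 1 := Units.ext (by rw [Units.val_pow_eq_pow_val]; exact h4)
  exact not_dvd_pprime (L := L) hp.1 (hg.trans (orderOf_dvd_of_pow_eq_one h5))

theorem root_ne_zero (g : (V →ₗ[F] V)ˣ) (hirr : Irreducible (g : V →ₗ[F] V).charpoly)
    {l : L} (hl : aeval l (g : V →ₗ[F] V).charpoly = 0) : l ≠ 0 := by
  have hfe : Finite (V →ₗ[F] V) := DFunLike.finite _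
  have h1 := root_pow_orderOf g hirr dvd_rfl hl (pow_orderOf_eq_one g)
  rintro rfl
  rw [zero_pow (orderOf_pos g).ne'] at h1
  exact zero_ne_one h1

/-- **Singular elements**: the sum of the values over all maps of `p`-power order vanishes. -/
theorem sum_cusp_sing {θ₀ : L →*₀ ℂ} (hθ₀ : Function.Injective θ₀) {p : ℕ} [hp : Fact p.Prime]
    (g : (V →ₗ[F] V)ˣ) (hg : p ∣ orderOf g) (hirr : Irreducible (g : V →ₗ[F] V).charpoly) :
    ∑ j ∈ Finset.range (p ^ expo L p), cusp L (pTheta θ₀ p j) (g : V →ₗ[F] V) = 0 := by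
  have h1 : ∀ j ∈ Finset.range (p ^ expo L p), cusp L (pTheta θ₀ p j) (g : V →ₗ[F] V) =
      (-1) ^ (Module.finrank F V - 1) * lb L (pTheta θ₀ p j) (g : V →ₗ[F] V).charpoly :=
    fun j _ => cusp_of_irreducible L _ hirr
  rw [Finset.sum_congr rfl h1, ← Finset.mul_sum]
  simp only [lb]
  rw [sum_multiset_map, Multiset.sum_eq_zero, mul_zero]
  intro x hx
  rw [Multiset.mem_map] at hx
  obtain ⟨l, hl, rfl⟩ := hx
  rw [mem_roots ((LinearMap.charpoly_monic _).map _).ne_zero, IsRoot.def, eval_map_algebraMap] at hl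
  have hl0 := root_ne_zero g hirr hl
  rw [Finset.sum_congr rfl fun j _ => pTheta_apply' θ₀ p j hl0]
  have h2 := mul_geom_sum (θ₀ l ^ pprime L p) (p ^ expo L p)
  rw [base_pow θ₀ p hl0, sub_self] at h2
  rcases mul_eq_zero.1 h2 with h3 | h3
  · exact absurd (sub_eq_zero.1 h3) (base_root hθ₀ g hg hirr hl)
  · exact h3

/-- the value of the trivial map at an irreducible element -/
theorem cusp_one_sing (hV : Module.finrank F V = Module.finrank F L) (g : (V →ₗ[F] V)ˣ)
    (hirr : Irreducible (g : V →ₗ[F] V).charpoly) :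
    cusp L (oneTheta L) (g : V →ₗ[F] V) = (-1) ^ (Module.finrank F V - 1) * (Module.finrank F V : ℂ) := by
  rw [cusp_of_irreducible L _ hirr, lb]
  have h1 : ((((g : V →ₗ[F] V).charpoly.map (algebraMap F L)).roots.map (oneTheta L))) =
      ((((g : V →ₗ[F] V).charpoly.map (algebraMap F L)).roots.map (fun _ => (1 : ℂ)))) := by
    refine Multiset.map_congr rfl fun l hl => ?_
    rw [mem_roots ((LinearMap.charpoly_monic _).map _).ne_zero, IsRoot.def, eval_map_algebraMap] at hl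
    exact oneTheta_apply (root_ne_zero g hirr hl)
  have h2 : ((g : V →ₗ[F] V).charpoly.map (algebraMap F L)).Splits :=
    splits_of_natDegree_dvd hirr (by rw [LinearMap.charpoly_natDegree, hV])
  rw [h1, Multiset.map_const', Multiset.sum_replicate, ← h2.natDegree_eq_card_roots, natDegree_map,
    LinearMap.charpoly_natDegree, nsmul_eq_mul, mul_one]

/-! ### counting the maps of `p`-power order -/

theorem expo_pos_pow (p : ℕ) [hp : Fact p.Prime] : 0 < p ^ expo L p := pow_pos hp.1.pos _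

/-- every map of `p`-power order is one of the `pTheta θ₀ p j`, exactly once -/
theorem existsUnique_pTheta {θ₀ : L →*₀ ℂ} (hθ₀ : Function.Injective θ₀) {p : ℕ} [hp : Fact p.Prime]
    (χ : L →*₀ ℂ) {k : ℕ} (hχ : ∀ x, x ≠ 0 → χ x ^ p ^ k = 1) :
    ∃! j, j ∈ Finset.range (p ^ expo L p) ∧ ∀ x, χ x = pTheta θ₀ p j x := by
  obtain ⟨γ, hγ⟩ := IsCyclic.exists_generator (α := Lˣ)
  have hord : orderOf γ = Nat.card Lˣ := orderOf_eq_card_of_forall_mem_zpowers hγ
  have hN : 0 < Nat.card Lˣ := Nat.card_pos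
  have hprim0 : IsPrimitiveRoot (θ₀ (γ : L)) (Nat.card Lˣ) := by
    let φ : Lˣ →* ℂ := (θ₀ : L →* ℂ).comp (Units.coeHom L)
    have hφ : Function.Injective φ := fun x y hxy => Units.ext (hθ₀ hxy)
    have h1 : orderOf (φ γ) = orderOf γ := orderOf_injective φ hφ γ
    have h2 := IsPrimitiveRoot.orderOf (φ γ)
    rw [h1, hord] at h2
    exact h2
  have hprim : IsPrimitiveRoot (θ₀ (γ : L) ^ pprime L p) (p ^ expo L p) :=
    hprim0.pow hN (by rw [mul_comm, expo_mul_pprime])
  have hnz : NeZero (p ^ expo L p) := ⟨(expo_pos_pow p).ne'⟩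
  have hγ0 : (γ : L) ≠ 0 := γ.ne_zero
  -- the value at the generator
  have hval : χ (γ : L) ^ p ^ expo L p = 1 := by
    have h1 : χ (γ : L) ^ Nat.card Lˣ = 1 := by rw [← map_pow, pow_card_units hγ0, map_one]
    have h2 := pow_gcd_eq_one.2 ⟨h1, hχ _ hγ0⟩
    have h3 : Nat.gcd (Nat.card Lˣ) (p ^ k) ∣ p ^ expo L p := by
      obtain ⟨i, hi, hi'⟩ := (Nat.dvd_prime_pow hp.1).1 (Nat.gcd_dvd_right (Nat.card Lˣ) (p ^ k))
      rw [hi']
      apply pow_dvd_pow
      have h4 : p ^ i ∣ Nat.card Lˣ := hi' ▸ Nat.gcd_dvd_left _ _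
      exact (hp.1.pow_dvd_iff_le_factorization hN.ne').1 h4
    obtain ⟨c, hc⟩ := h3
    rw [hc, pow_mul, h2, one_pow]
  have key : ∀ j, (∀ x, χ x = pTheta θ₀ p j x) ↔ (θ₀ (γ : L) ^ pprime L p) ^ j = χ (γ : L) := by
    intro j
    constructor
    · intro h
      rw [h, pTheta_apply' θ₀ p j hγ0]
    · intro h x
      by_cases hx : x = 0
      · rw [hx, map_zero, map_zero]
      · have h3 := hγ (Units.mk0 x hx)
        rw [← mem_powers_iff_mem_zpowers] at h3
        obtain ⟨i, hi⟩ := h3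
        have hi' : x = (γ : L) ^ i := (congrArg Units.val hi).symm
        rw [hi', map_pow, map_pow, pTheta_apply' θ₀ p j hγ0, h]
  obtain ⟨j, hj, hj'⟩ := hprim.eq_pow_of_pow_eq_one hval
  refine ⟨j, ⟨Finset.mem_range.2 hj, (key j).2 hj'⟩, ?_⟩
  rintro j2 ⟨h1, h2⟩
  exact hprim.pow_inj (Finset.mem_range.1 h1) hj (((key j2).1 h2).trans hj'.symm)

/-- composition with a power of the Frobenius -/
theorem exists_frob_comp (F : Type u) [Field F] [Finite F] {L : Type w} [Field L] [Finite L] [Algebra F L]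
    (θ : L →*₀ ℂ) (i : ℕ) : ∃ χ : L →*₀ ℂ, ∀ x, χ x = θ (x ^ Nat.card F ^ i) := by
  obtain ⟨j, hj⟩ := exists_frob F L i
  exact ⟨{ toFun := fun x => θ (j x)
           map_zero' := by rw [map_zero, map_zero]
           map_one' := by rw [map_one, map_one]
           map_mul' := fun x y => by rw [map_mul, map_mul] }, fun x => by
             show θ (j x) = _
             rw [hj]⟩

theorem frob_surj (F : Type u) [Field F] [Finite F] {L : Type w} [Field L] [Finite L] [Algebra F L] (i : ℕ) (x : L) :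
    ∃ y : L, y ^ Nat.card F ^ i = x := by
  obtain ⟨j, hj⟩ := exists_frob F L i
  have h1 : Function.Injective j := j.toRingHom.injective
  obtain ⟨y, hy⟩ := (Finite.injective_iff_surjective.1 h1) x
  exact ⟨y, by rw [← hj, hy]⟩

variable {θ : L →*₀ ℂ} {p : ℕ} [hp : Fact p.Prime] {k : ℕ}

/-- the hypothesis on `θ` -/
structure IsPTheta (F : Type u) {L : Type w} [Field F] [Field L] [Algebra F L] (p k : ℕ) (θ : L →*₀ ℂ) : Prop where
  pow : ∀ x, x ≠ 0 → θ x ^ p ^ k = 1
  ne : ∃ x, x ≠ 0 ∧ θ x ≠ 1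
  ord : orderOf (Nat.card F : ZMod p) = Module.finrank F L
  char : ¬ p ∣ Nat.card F

/-- **Regularity** -/
theorem IsPTheta.regular (h : IsPTheta F p k θ) : Regular F (Module.finrank F L) θ := by
  rw [regular_iff]
  intro i hi hin hall
  obtain ⟨x, hx, hx1⟩ := h.ne
  have h1 := hall x
  have hq : 0 < Nat.card F := Nat.card_pos
  have hle : 1 ≤ Nat.card F ^ i := Nat.one_le_pow _ _ hq
  have h0 : θ x ≠ 0 := (map_ne_zero θ).2 hx
  have h2 : θ x ^ (Nat.card F ^ i - 1) = 1 := by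
    rw [map_pow] at h1
    apply mul_right_cancel₀ h0
    rw [← pow_succ, Nat.sub_add_cancel hle, one_mul]
    exact h1.symm
  have h3 : (p ^ k).Coprime (Nat.card F ^ i - 1) :=
    Nat.Coprime.pow_left _ ((Nat.Prime.coprime_iff_not_dvd hp.1).2 (not_dvd_pow_sub_one hq h.ord hi hin))
  have h4 := pow_gcd_eq_one.2 ⟨h.pow x hx, h2⟩
  rw [h3, pow_one] at h4
  exact hx1 h4

theorem oneTheta_pow (x : L) (hx : x ≠ 0) : oneTheta L x ^ p ^ k = 1 := by
  rw [oneTheta_apply hx, one_pow]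

section inner

variable (hV : Module.finrank F V = Module.finrank F L)

include hV

/-- **Irreducibility** -/
theorem IsPTheta.isIrr (h : IsPTheta F p k θ) :
    IsIrrCharacter (V →ₗ[F] V)ˣ (fun g => cusp L θ (g : V →ₗ[F] V)) :=
  cusp_isIrr θ hV h.regular

theorem inner_oneTheta (h : IsPTheta F p k θ) [Fintype (V →ₗ[F] V)ˣ] :
    classInner (fun g : (V →ₗ[F] V)ˣ => cusp L θ (g : V →ₗ[F] V))
      (fun g : (V →ₗ[F] V)ˣ => cusp L (oneTheta L) (g : V →ₗ[F] V)) = 0 := by
  classical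
  rw [cusp_inner θ (oneTheta L) hV, Nat.cast_eq_zero, Finset.card_eq_zero, Finset.filter_eq_empty_iff]
  intro i _ hall
  obtain ⟨x, hx, hx1⟩ := h.ne
  obtain ⟨y, hy⟩ := frob_surj F i x
  have hy0 : y ≠ 0 := by
    rintro rfl
    rw [zero_pow (pow_pos Nat.card_pos _).ne'] at hy
    exact hx hy.symm
  have h1 := hall y
  rw [hy, oneTheta_apply hy0] at h1
  exact hx1 h1.symm

theorem sum_inner_pTheta (h : IsPTheta F p k θ) {θ₀ : L →*₀ ℂ} (hθ₀ : Function.Injective θ₀)
    [Fintype (V →ₗ[F] V)ˣ] :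
    ∑ j ∈ Finset.range (p ^ expo L p), classInner (fun g : (V →ₗ[F] V)ˣ => cusp L θ (g : V →ₗ[F] V))
      (fun g : (V →ₗ[F] V)ˣ => cusp L (pTheta θ₀ p j) (g : V →ₗ[F] V)) = Module.finrank F L := by
  classical
  have h1 : ∀ j ∈ Finset.range (p ^ expo L p), classInner (fun g : (V →ₗ[F] V)ˣ => cusp L θ (g : V →ₗ[F] V))
      (fun g : (V →ₗ[F] V)ˣ => cusp L (pTheta θ₀ p j) (g : V →ₗ[F] V)) =
      ∑ i ∈ Finset.range (Module.finrank F L), if (∀ x : L, pTheta θ₀ p j x = θ (x ^ Nat.card F ^ i)) then (1 : ℂ) else 0 := by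
    intro j _
    rw [cusp_inner θ _ hV, Finset.sum_boole]
  rw [Finset.sum_congr rfl h1, Finset.sum_comm]
  have h2 : ∀ i ∈ Finset.range (Module.finrank F L), (∑ j ∈ Finset.range (p ^ expo L p),
      if (∀ x : L, pTheta θ₀ p j x = θ (x ^ Nat.card F ^ i)) then (1 : ℂ) else 0) = 1 := by
    intro i _
    obtain ⟨χ, hχ⟩ := exists_frob_comp F θ i
    have hχp : ∀ x, x ≠ 0 → χ x ^ p ^ k = 1 := fun x hx => by
      rw [hχ, h.pow]
      exact pow_ne_zero _ hx
    obtain ⟨j, ⟨hj, hj'⟩, hu⟩ := existsUnique_pTheta hθ₀ χ hχp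
    rw [Finset.sum_boole, Nat.cast_eq_one, Finset.card_eq_one]
    refine ⟨j, ?_⟩
    ext j2
    rw [Finset.mem_filter, Finset.mem_singleton]
    constructor
    · rintro ⟨h3, h4⟩
      exact hu j2 ⟨h3, fun x => by rw [hχ, h4]⟩
    · rintro rfl
      exact ⟨hj, fun x => by rw [← hj', hχ]⟩
  rw [Finset.sum_congr rfl h2, Finset.sum_const, Finset.card_range, nsmul_eq_mul, mul_one]

/-- orthogonal to the trivial character -/
theorem IsPTheta.inner_one' (h : IsPTheta F p k θ) [Fintype (V →ₗ[F] V)ˣ] :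
    classInner (fun g : (V →ₗ[F] V)ˣ => cusp L θ (g : V →ₗ[F] V)) (fun _ => 1) = 0 := by
  classical
  refine Characters.Core.classInner_irr_ne (h.isIrr hV) Blocks.Basic.isIrrCharacter_one fun heq => ?_
  have hnpos : 0 < Module.finrank F L := Module.finrank_pos
  rcases Nat.lt_or_ge (Module.finrank F L) 2 with hn1 | hn
  · -- dimension one
    have hn1' : Module.finrank F L = 1 := by omega
    obtain ⟨x, hx, hx1⟩ := h.ne
    have hsurj : Function.Surjective (algebraMap F L) := by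
      have h1 := Module.natCard_eq_pow_finrank (K := F) (V := L)
      rw [hn1', pow_one] at h1
      exact ((Nat.bijective_iff_injective_and_card (algebraMap F L)).2 ⟨(algebraMap F L).injective, h1.symm⟩).2
    obtain ⟨c, rfl⟩ := hsurj x
    have hc : c ≠ 0 := by
      rintro rfl
      exact hx (map_zero _)
    have hcu : IsUnit (c • (1 : V →ₗ[F] V)) := ⟨Units.mk0 c hc • 1, rfl⟩
    obtain ⟨u, hu⟩ := hcu
    have h1 := congrFun heq u
    have h2 := cusp_smul θ hV hc (1 : V →ₗ[F] V)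
    have h3 := congrFun heq 1
    rw [← hu] at h2
    rw [Units.val_one] at h3
    rw [h1, h3, mul_one] at h2
    exact hx1 h2.symm
  have hnt : Nontrivial V := Module.nontrivial_of_finrank_pos (R := F) (by omega)
  obtain ⟨v, hv⟩ := exists_ne (0 : V)
  have h0 : Submodule.span F {v} ≠ ⊥ := by
    rw [Ne, Submodule.span_singleton_eq_bot]
    exact hv
  have h1 : Submodule.span F {v} ≠ ⊤ := by
    intro h2
    have h3 := finrank_span_singleton (K := F) hv
    rw [h2, finrank_top] at h3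
    omega
  have h2 := cusp_vanish L θ (g := (1 : V →ₗ[F] V)) (fun x hx => hx) h0 h1
  have h3 : ∀ t : (V ⧸ Submodule.span F {v}) →ₗ[F] Submodule.span F {v},
      cusp L θ (1 + phi (Submodule.span F {v}) t) = 1 := fun t => congrFun heq (unitPhi t)
  rw [Finset.sum_congr rfl fun t _ => h3 t, Finset.sum_const, nsmul_eq_mul, mul_one, Nat.cast_eq_zero,
    Finset.card_eq_zero] at h2
  exact Finset.notMem_empty _ (h2 ▸ Finset.mem_univ (0 : (V ⧸ Submodule.span F {v}) →ₗ[F] Submodule.span F {v}))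

theorem IsPTheta.inner_one (h : IsPTheta F p k θ) (_hn : 2 ≤ Module.finrank F L) [Fintype (V →ₗ[F] V)ˣ] :
    classInner (fun g : (V →ₗ[F] V)ˣ => cusp L θ (g : V →ₗ[F] V)) (fun _ => 1) = 0 := h.inner_one' hV

open Classical in
/-- **The sum over the `p`-regular elements.** -/
theorem IsPTheta.inner_reg' (h : IsPTheta F p k θ) [Fintype (V →ₗ[F] V)ˣ] :
    classInner (fun g : (V →ₗ[F] V)ˣ => cusp L θ (g : V →ₗ[F] V)) (fun g => if p ∣ orderOf g then 0 else 1) =
      (-1) ^ (Module.finrank F L - 1) / (p : ℂ) ^ expo L p := by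
  obtain ⟨θ₀, hθ₀⟩ := exists_theta L
  have hp0 : (p : ℂ) ^ expo L p ≠ 0 := pow_ne_zero _ (Nat.cast_ne_zero.2 hp.1.ne_zero)
  have hn0 : (Module.finrank F L : ℂ) ≠ 0 := Nat.cast_ne_zero.2 Module.finrank_pos.ne'
  have hs0 : ((-1 : ℂ)) ^ (Module.finrank F L - 1) ≠ 0 := pow_ne_zero _ (neg_ne_zero.2 one_ne_zero)
  have hss : ((-1 : ℂ)) ^ (Module.finrank F L - 1) * (-1) ^ (Module.finrank F L - 1) = 1 := by
    rw [← mul_pow, neg_one_mul, neg_neg, one_pow]
  set s : ℂ := (-1) ^ (Module.finrank F L - 1) with hs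
  have hsc : conj s = s := by rw [hs, map_pow, map_neg, map_one]
  -- the pointwise identity
  have hpt : ∀ g : (V →ₗ[F] V)ˣ, (if p ∣ orderOf g then (p : ℂ) ^ expo L p * (s * Module.finrank F L) else 0) =
      (p : ℂ) ^ expo L p * cusp L (oneTheta L) (g : V →ₗ[F] V) -
        ∑ j ∈ Finset.range (p ^ expo L p), cusp L (pTheta θ₀ p j) (g : V →ₗ[F] V) := by
    intro g
    by_cases hg : p ∣ orderOf g
    · have hirr := irreducible_charpoly h.char (h.ord.trans hV.symm) g hg
      rw [if_pos hg, sum_cusp_sing hθ₀ g hg hirr, cusp_one_sing hV g hirr, sub_zero, hV]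
    · rw [if_neg hg, Finset.sum_congr rfl fun j _ => cusp_pRegular (θ' := oneTheta L)
        (pTheta_pow θ₀ p j) (fun x hx => oneTheta_pow x hx) g hg, Finset.sum_const, Finset.card_range,
        nsmul_eq_mul]
      push_cast
      ring
  -- the inner products
  have h1 := inner_oneTheta hV h
  have h2 := sum_inner_pTheta hV h hθ₀
  have h3 := h.inner_one' hV
  simp only [Characters.Core.classInner_def] at h1 h2 h3 ⊢
  have hG0 : (Nat.card (V →ₗ[F] V)ˣ : ℂ)⁻¹ ≠ 0 := inv_ne_zero (Nat.cast_ne_zero.2 Nat.card_pos.ne')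
  -- the singular part
  have h4 : (Nat.card (V →ₗ[F] V)ˣ : ℂ)⁻¹ * ∑ g : (V →ₗ[F] V)ˣ, cusp L θ (g : V →ₗ[F] V) *
      conj (if p ∣ orderOf g then (p : ℂ) ^ expo L p * (s * Module.finrank F L) else 0) =
      - Module.finrank F L := by
    have h5 : ∀ g : (V →ₗ[F] V)ˣ, cusp L θ (g : V →ₗ[F] V) *
        conj (if p ∣ orderOf g then (p : ℂ) ^ expo L p * (s * Module.finrank F L) else 0) =
        (p : ℂ) ^ expo L p * (cusp L θ (g : V →ₗ[F] V) * conj (cusp L (oneTheta L) (g : V →ₗ[F] V))) -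
        ∑ j ∈ Finset.range (p ^ expo L p), cusp L θ (g : V →ₗ[F] V) *
          conj (cusp L (pTheta θ₀ p j) (g : V →ₗ[F] V)) := by
      intro g
      rw [hpt g, map_sub, map_mul, map_sum, map_pow, Complex.conj_natCast, mul_sub, Finset.mul_sum]
      ring
    rw [Finset.sum_congr rfl fun g _ => h5 g, Finset.sum_sub_distrib, ← Finset.mul_sum, Finset.sum_comm,
      mul_sub, mul_left_comm, h1, mul_zero, zero_sub, Finset.mul_sum, h2]
  have h6 : ∀ g : (V →ₗ[F] V)ˣ, cusp L θ (g : V →ₗ[F] V) * conj (if p ∣ orderOf g then (0 : ℂ) else 1) =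
      cusp L θ (g : V →ₗ[F] V) * conj (1 : ℂ) - ((p : ℂ) ^ expo L p * (s * Module.finrank F L))⁻¹ *
      (cusp L θ (g : V →ₗ[F] V) *
        conj (if p ∣ orderOf g then (p : ℂ) ^ expo L p * (s * Module.finrank F L) else 0)) := by
    intro g
    by_cases hg : p ∣ orderOf g
    · rw [if_pos hg, if_pos hg, map_zero, map_one, map_mul, map_mul, hsc, map_pow, Complex.conj_natCast,
        Complex.conj_natCast]
      field_simp
      ring
    · rw [if_neg hg, if_neg hg, map_zero, mul_zero, mul_zero, sub_zero]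
  rw [Finset.sum_congr rfl fun g _ => h6 g, Finset.sum_sub_distrib, mul_sub, h3, ← Finset.mul_sum,
    mul_left_comm, h4, zero_sub]
  rw [mul_inv, mul_inv]
  have h7 : s⁻¹ = s := by
    rw [inv_eq_iff_eq_inv, eq_comm]
    exact inv_eq_of_mul_eq_one_left hss
  rw [h7]
  field_simp

open Classical in
theorem IsPTheta.inner_reg (h : IsPTheta F p k θ) (_hn : 2 ≤ Module.finrank F L) [Fintype (V →ₗ[F] V)ˣ] :
    classInner (fun g : (V →ₗ[F] V)ˣ => cusp L θ (g : V →ₗ[F] V)) (fun g => if p ∣ orderOf g then 0 else 1) =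
      (-1) ^ (Module.finrank F L - 1) / (p : ℂ) ^ expo L p := h.inner_reg' hV

/-- the degree is prime to `p` -/
theorem IsPTheta.degree (h : IsPTheta F p k θ) : ¬ p ∣ degP (Nat.card F) (Module.finrank F V) := by
  intro hd
  rw [degP, hp.1.prime.dvd_finsetProd_iff] at hd
  obtain ⟨i, hi, hd⟩ := hd
  rw [Finset.mem_range] at hi
  exact not_dvd_pow_sub_one Nat.card_pos (h.ord.trans hV.symm) (by omega) (by omega) hd

/-- the class function is a cuspidal irreducible character in the principal block -/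
theorem IsPTheta.mem_principalBlock' (h : IsPTheta F p k θ)
    {𝔐 : Ideal AlgInt} (h𝔐 : IsPModular p 𝔐) {χ : IrrCharacter (V →ₗ[F] V)ˣ}
    (hχ : ∀ g : (V →ₗ[F] V)ˣ, (χ : (V →ₗ[F] V)ˣ → ℂ) g = cusp L θ (g : V →ₗ[F] V)) :
    χ ∈ principalBlock 𝔐 (V →ₗ[F] V)ˣ := by
  classical
  have hfe : Finite (V →ₗ[F] V) := DFunLike.finite _
  have hft : Fintype (V →ₗ[F] V)ˣ := Fintype.ofFinite _
  refine mem_of_pReg h𝔐 ?_
  have h1 := h.inner_reg' hV
  have h2 : classInner (χ : (V →ₗ[F] V)ˣ → ℂ) (pRegularPart p fun _ => 1) =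
      classInner (fun g : (V →ₗ[F] V)ˣ => cusp L θ (g : V →ₗ[F] V)) (fun g => if p ∣ orderOf g then 0 else 1) := by
    have h3 : (χ : (V →ₗ[F] V)ˣ → ℂ) = fun g : (V →ₗ[F] V)ˣ => cusp L θ (g : V →ₗ[F] V) := funext hχ
    rw [h3]
    congr 1
    funext g
    rw [pRegularPart]
    by_cases hg : p ∣ orderOf g
    · rw [if_pos hg, if_neg fun h4 : IsPRegular p g => h4 hg]
    · rw [if_neg hg, if_pos (show IsPRegular p g from hg)]
  rw [h2, h1]
  exact div_ne_zero (pow_ne_zero _ (neg_ne_zero.2 one_ne_zero))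
    (pow_ne_zero _ (Nat.cast_ne_zero.2 hp.1.ne_zero))

theorem IsPTheta.mem_principalBlock (h : IsPTheta F p k θ) (_hn : 2 ≤ Module.finrank F L)
    {𝔐 : Ideal AlgInt} (h𝔐 : IsPModular p 𝔐) {χ : IrrCharacter (V →ₗ[F] V)ˣ}
    (hχ : ∀ g : (V →ₗ[F] V)ˣ, (χ : (V →ₗ[F] V)ˣ → ℂ) g = cusp L θ (g : V →ₗ[F] V)) :
    χ ∈ principalBlock 𝔐 (V →ₗ[F] V)ˣ := h.mem_principalBlock' hV h𝔐 hχ

end inner

/-! ### duality -/

/-- the conjugate map is a Frobenius conjugate if the degree is even -/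
theorem IsPTheta.conj_even (h : IsPTheta F p k θ) (he : Even (Module.finrank F L)) (x : L) :
    conjTheta θ x = θ (x ^ Nat.card F ^ (Module.finrank F L / 2)) := by
  rw [conjTheta_apply]
  by_cases hx : x = 0
  · rw [hx, zero_pow (pow_pos Nat.card_pos _).ne', map_zero, map_zero]
  obtain ⟨m, hm⟩ := he
  have hn0 : 0 < Module.finrank F L := Module.finrank_pos
  have hm2 : Module.finrank F L / 2 = m := by omega
  rw [hm2, conj_theta_eq, map_inv₀]
  have h0 : θ x ≠ 0 := (map_ne_zero θ).2 hx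
  have hq : 0 < Nat.card F := Nat.card_pos
  have hle : 1 ≤ Nat.card F ^ m := Nat.one_le_pow _ _ hq
  have h1 : (θ x ^ (Nat.card F ^ m + 1)) ^ (Nat.card F ^ m - 1) = 1 := by
    rw [← pow_mul]
    have h2 : (Nat.card F ^ m + 1) * (Nat.card F ^ m - 1) = Nat.card Lˣ := by
      rw [Nat.card_units, Module.natCard_eq_pow_finrank (K := F) (V := L), hm, pow_add, ← Nat.sq_sub_sq, sq,
        one_pow]
    rw [h2, ← map_pow, pow_card_units hx, map_one]
  have h2 : (θ x ^ (Nat.card F ^ m + 1)) ^ p ^ k = 1 := by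
    rw [← pow_mul, mul_comm, pow_mul, h.pow x hx, one_pow]
  have h3 : (p ^ k).Coprime (Nat.card F ^ m - 1) :=
    Nat.Coprime.pow_left _ ((Nat.Prime.coprime_iff_not_dvd hp.1).2
      (not_dvd_pow_sub_one hq h.ord (by omega) (by omega)))
  have h4 := pow_gcd_eq_one.2 ⟨h2, h1⟩
  rw [h3, pow_one, pow_succ] at h4
  rw [map_pow]
  exact inv_eq_of_mul_eq_one_left h4

/-- the conjugate map is not a Frobenius conjugate if the degree is odd -/
theorem IsPTheta.conj_odd (h : IsPTheta F p k θ) (hp2 : p ≠ 2) (he : Odd (Module.finrank F L)) (i : ℕ)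
    (hi : i < Module.finrank F L) : ¬ ∀ x : L, conjTheta θ x = θ (x ^ Nat.card F ^ i) := by
  intro hall
  obtain ⟨x, hx, hx1⟩ := h.ne
  have h1 := hall x
  have h0 : θ x ≠ 0 := (map_ne_zero θ).2 hx
  rw [conjTheta_apply, conj_theta_eq, map_inv₀, map_pow] at h1
  have h2 : θ x ^ (Nat.card F ^ i + 1) = 1 := by
    rw [pow_succ, ← h1, inv_mul_cancel₀ h0]
  -- `p` divides `q ^ i + 1`
  have h3 : p ∣ Nat.card F ^ i + 1 := by
    by_contra h3
    have h4 : (p ^ k).Coprime (Nat.card F ^ i + 1) :=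
      Nat.Coprime.pow_left _ ((Nat.Prime.coprime_iff_not_dvd hp.1).2 h3)
    have h5 := pow_gcd_eq_one.2 ⟨h.pow x hx, h2⟩
    rw [h4, pow_one] at h5
    exact hx1 h5
  have h4 : ((Nat.card F ^ i + 1 : ℕ) : ZMod p) = 0 := (ZMod.natCast_eq_zero_iff _ _).2 h3
  push_cast at h4
  have h5 : (Nat.card F : ZMod p) ^ i = -1 := eq_neg_of_add_eq_zero_left h4
  have h6 : (Nat.card F : ZMod p) ^ (2 * i) = 1 := by
    rw [mul_comm, pow_mul, h5, neg_one_sq]
  have h7 := orderOf_dvd_of_pow_eq_one h6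
  rw [h.ord] at h7
  have h8 : (Module.finrank F L).Coprime 2 := Nat.coprime_two_right.2 he
  have h9 := h8.dvd_of_dvd_mul_left h7
  have h10 : i = 0 := by
    by_contra h10
    exact absurd (Nat.le_of_dvd (Nat.pos_of_ne_zero h10) h9) (by omega)
  rw [h10, pow_zero] at h3
  have h11 : p ∣ 2 := h3
  exact hp2 ((Nat.prime_dvd_prime_iff_eq hp.1 Nat.prime_two).1 h11)

section dual

variable (hV : Module.finrank F V = Module.finrank F L)

include hV

/-- **Even degree**: the character is real. -/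
theorem IsPTheta.real_even (h : IsPTheta F p k θ) (he : Even (Module.finrank F L)) (g : (V →ₗ[F] V)ˣ) :
    conj (cusp L θ (g : V →ₗ[F] V)) = cusp L θ (g : V →ₗ[F] V) := by
  rw [cusp_star]
  symm
  have hn0 : 0 < Module.finrank F L := Module.finrank_pos
  exact (cusp_eq_iff θ (conjTheta θ) hV h.regular).2 ⟨Module.finrank F L / 2, by omega, h.conj_even he⟩ g

/-- **Even degree**: the character is self dual. -/
theorem IsPTheta.inv_even (h : IsPTheta F p k θ) (he : Even (Module.finrank F L)) (g : (V →ₗ[F] V)ˣ) :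
    cusp L θ ((g⁻¹ : (V →ₗ[F] V)ˣ) : V →ₗ[F] V) = cusp L θ (g : V →ₗ[F] V) := by
  rw [cusp_inv θ hV, h.real_even hV he]

/-- **Odd degree**: the character is orthogonal to its dual. -/
theorem IsPTheta.inner_odd (h : IsPTheta F p k θ) (hp2 : p ≠ 2) (he : Odd (Module.finrank F L))
    [Fintype (V →ₗ[F] V)ˣ] : classInner (fun g : (V →ₗ[F] V)ˣ => cusp L θ (g : V →ₗ[F] V))
      (fun g : (V →ₗ[F] V)ˣ => cusp L θ ((g⁻¹ : (V →ₗ[F] V)ˣ) : V →ₗ[F] V)) = 0 := by
  classical
  have h1 : (fun g : (V →ₗ[F] V)ˣ => cusp L θ ((g⁻¹ : (V →ₗ[F] V)ˣ) : V →ₗ[F] V)) =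
      fun g : (V →ₗ[F] V)ˣ => cusp L (conjTheta θ) (g : V →ₗ[F] V) := by
    funext g
    rw [cusp_inv θ hV, cusp_star]
  rw [h1, cusp_inner θ (conjTheta θ) hV, Nat.cast_eq_zero, Finset.card_eq_zero,
    Finset.filter_eq_empty_iff]
  intro i hi hall
  exact h.conj_odd hp2 he i (Finset.mem_range.1 hi) hall

end dual

/-! ### transport -/

section transport

variable (hV : Module.finrank F V = Module.finrank F L) {G' : Type*} [Group G'] (e : G' ≃* (V →ₗ[F] V)ˣ)

include hV

theorem IsPTheta.isIrr_comp (h : IsPTheta F p k θ) :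
    IsIrrCharacter G' (fun g => cusp L θ ((e g : (V →ₗ[F] V)ˣ) : V →ₗ[F] V)) :=
  Characters.Core.isIrr_comp e.toMonoidHom e.surjective (h.isIrr hV)

open Classical in
theorem IsPTheta.inner_reg_comp' (h : IsPTheta F p k θ) [Fintype G'] :
    classInner (fun g : G' => cusp L θ ((e g : (V →ₗ[F] V)ˣ) : V →ₗ[F] V))
      (fun g => if p ∣ orderOf g then 0 else 1) = (-1) ^ (Module.finrank F L - 1) / (p : ℂ) ^ expo L p := by
  have hfe : Finite (V →ₗ[F] V) := DFunLike.finite _
  have hft : Fintype (V →ₗ[F] V)ˣ := Fintype.ofFinite _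
  rw [← h.inner_reg' hV, ← classInner_comp e]
  congr 1
  funext g
  rw [MulEquiv.orderOf_eq]

open Classical in
theorem IsPTheta.inner_reg_comp (h : IsPTheta F p k θ) (_hn : 2 ≤ Module.finrank F L) [Fintype G'] :
    classInner (fun g : G' => cusp L θ ((e g : (V →ₗ[F] V)ˣ) : V →ₗ[F] V))
      (fun g => if p ∣ orderOf g then 0 else 1) = (-1) ^ (Module.finrank F L - 1) / (p : ℂ) ^ expo L p :=
  h.inner_reg_comp' hV e

theorem IsPTheta.inner_one_comp' (h : IsPTheta F p k θ) [Fintype G'] :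
    classInner (fun g : G' => cusp L θ ((e g : (V →ₗ[F] V)ˣ) : V →ₗ[F] V)) (fun _ => 1) = 0 := by
  have hfe : Finite (V →ₗ[F] V) := DFunLike.finite _
  have hft : Fintype (V →ₗ[F] V)ˣ := Fintype.ofFinite _
  rw [← h.inner_one' hV, ← classInner_comp e]

theorem IsPTheta.inner_one_comp (h : IsPTheta F p k θ) (_hn : 2 ≤ Module.finrank F L) [Fintype G'] :
    classInner (fun g : G' => cusp L θ ((e g : (V →ₗ[F] V)ˣ) : V →ₗ[F] V)) (fun _ => 1) = 0 :=
  h.inner_one_comp' hV e

theorem IsPTheta.mem_principalBlock_comp' (h : IsPTheta F p k θ) [Finite G']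
    {𝔐 : Ideal AlgInt} (h𝔐 : IsPModular p 𝔐) {χ : IrrCharacter G'}
    (hχ : ∀ g : G', (χ : G' → ℂ) g = cusp L θ ((e g : (V →ₗ[F] V)ˣ) : V →ₗ[F] V)) :
    χ ∈ principalBlock 𝔐 G' := by
  classical
  have hft : Fintype G' := Fintype.ofFinite _
  refine mem_of_pReg h𝔐 ?_
  have h1 := h.inner_reg_comp' hV e
  have h2 : classInner (χ : G' → ℂ) (pRegularPart p fun _ => 1) =
      classInner (fun g : G' => cusp L θ ((e g : (V →ₗ[F] V)ˣ) : V →ₗ[F] V))
        (fun g => if p ∣ orderOf g then 0 else 1) := by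
    have h3 : (χ : G' → ℂ) = fun g : G' => cusp L θ ((e g : (V →ₗ[F] V)ˣ) : V →ₗ[F] V) := funext hχ
    rw [h3]
    congr 1
    funext g
    rw [pRegularPart]
    by_cases hg : p ∣ orderOf g
    · rw [if_pos hg, if_neg fun h4 : IsPRegular p g => h4 hg]
    · rw [if_neg hg, if_pos (show IsPRegular p g from hg)]
  rw [h2, h1]
  exact div_ne_zero (pow_ne_zero _ (neg_ne_zero.2 one_ne_zero))
    (pow_ne_zero _ (Nat.cast_ne_zero.2 hp.1.ne_zero))

theorem IsPTheta.mem_principalBlock_comp (h : IsPTheta F p k θ) (_hn : 2 ≤ Module.finrank F L) [Finite G']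
    {𝔐 : Ideal AlgInt} (h𝔐 : IsPModular p 𝔐) {χ : IrrCharacter G'}
    (hχ : ∀ g : G', (χ : G' → ℂ) g = cusp L θ ((e g : (V →ₗ[F] V)ˣ) : V →ₗ[F] V)) :
    χ ∈ principalBlock 𝔐 G' := h.mem_principalBlock_comp' hV e h𝔐 hχ

end transport

/-! ### the matrix group and the group of linear equivalences -/

section matrixGroup

open scoped MatrixGroups

variable {n : ℕ} (hn : Module.finrank F L = n)

include hn

theorem finrank_fin_eq : Module.finrank F (Fin n → F) = Module.finrank F L := by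
  rw [Module.finrank_fin_fun, hn]

/-- `psi` of the matrix group is irreducible -/
theorem IsPTheta.psi_isIrr (h : IsPTheta F p k θ) : IsIrrCharacter (GL (Fin n) F) (psi L θ) :=
  Cfsg.Agent.H139.Cusp.psi_isIrr θ hn (hn ▸ h.regular)

open Classical in
/-- the sum of `psi` over the `p`-regular matrices -/
theorem IsPTheta.psi_inner_reg' (h : IsPTheta F p k θ) [Fintype (GL (Fin n) F)] :
    classInner (psi L θ : GL (Fin n) F → ℂ) (fun g => if p ∣ orderOf g then 0 else 1) =
      (-1) ^ (n - 1) / (p : ℂ) ^ expo L p := by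
  have h1 := h.inner_reg_comp' (finrank_fin_eq hn) (Matrix.GeneralLinearGroup.toLin : GL (Fin n) F ≃* _)
  rw [hn] at h1
  exact h1

open Classical in
theorem IsPTheta.psi_inner_reg (h : IsPTheta F p k θ) (_h2 : 2 ≤ n) [Fintype (GL (Fin n) F)] :
    classInner (psi L θ : GL (Fin n) F → ℂ) (fun g => if p ∣ orderOf g then 0 else 1) =
      (-1) ^ (n - 1) / (p : ℂ) ^ expo L p := h.psi_inner_reg' hn

theorem IsPTheta.psi_inner_one' (h : IsPTheta F p k θ) [Fintype (GL (Fin n) F)] :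
    classInner (psi L θ : GL (Fin n) F → ℂ) (fun _ => 1) = 0 :=
  h.inner_one_comp' (finrank_fin_eq hn) (Matrix.GeneralLinearGroup.toLin : GL (Fin n) F ≃* _)

theorem IsPTheta.psi_inner_one (h : IsPTheta F p k θ) (_h2 : 2 ≤ n) [Fintype (GL (Fin n) F)] :
    classInner (psi L θ : GL (Fin n) F → ℂ) (fun _ => 1) = 0 := h.psi_inner_one' hn

theorem IsPTheta.psi_mem_principalBlock' (h : IsPTheta F p k θ)
    {𝔐 : Ideal AlgInt} (h𝔐 : IsPModular p 𝔐) :
    (⟨psi L θ, h.psi_isIrr hn⟩ : IrrCharacter (GL (Fin n) F)) ∈ principalBlock 𝔐 (GL (Fin n) F) :=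
  h.mem_principalBlock_comp' (finrank_fin_eq hn) (Matrix.GeneralLinearGroup.toLin : GL (Fin n) F ≃* _)
    h𝔐 fun _ => rfl

theorem IsPTheta.psi_mem_principalBlock (h : IsPTheta F p k θ) (_h2 : 2 ≤ n)
    {𝔐 : Ideal AlgInt} (h𝔐 : IsPModular p 𝔐) :
    (⟨psi L θ, h.psi_isIrr hn⟩ : IrrCharacter (GL (Fin n) F)) ∈ principalBlock 𝔐 (GL (Fin n) F) :=
  h.psi_mem_principalBlock' hn h𝔐

/-- on `p`-regular elements `psi` does not depend on `θ` -/
theorem psi_pRegular {θ' : L →*₀ ℂ} (hθ : ∀ x, x ≠ 0 → θ x ^ p ^ k = 1) (hθ' : ∀ x, x ≠ 0 → θ' x ^ p ^ k = 1)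
    (g : GL (Fin n) F) (hg : ¬ p ∣ orderOf g) : psi L θ g = psi L θ' g :=
  cusp_pRegular hθ hθ' (Matrix.GeneralLinearGroup.toLin g) (by rwa [MulEquiv.orderOf_eq])

theorem IsPTheta.psi_one (h : IsPTheta F p k θ) :
    psi L θ (1 : GL (Fin n) F) = (degP (Nat.card F) n : ℂ) ∧ ¬ p ∣ degP (Nat.card F) n := by
  refine ⟨Cfsg.Agent.H139.Cusp.psi_one L θ (hn ▸ Module.finrank_pos), ?_⟩
  have h1 := h.degree (V := Fin n → F) (finrank_fin_eq hn)
  rwa [Module.finrank_fin_fun] at h1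

theorem IsPTheta.psi_conj_even (h : IsPTheta F p k θ) (he : Even n) (g : GL (Fin n) F) :
    conj (psi L θ g) = psi L θ g :=
  h.real_even (finrank_fin_eq hn) (hn ▸ he) (Matrix.GeneralLinearGroup.toLin g)

theorem IsPTheta.psi_inv_even (h : IsPTheta F p k θ) (he : Even n) (g : GL (Fin n) F) :
    psi L θ g⁻¹ = psi L θ g := by
  have h1 := h.inv_even (finrank_fin_eq hn) (hn ▸ he) (Matrix.GeneralLinearGroup.toLin g)
  rw [← map_inv] at h1
  exact h1

theorem IsPTheta.psi_inner_odd (h : IsPTheta F p k θ) (hp2 : p ≠ 2) (he : Odd n) [Fintype (GL (Fin n) F)] :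
    classInner (psi L θ : GL (Fin n) F → ℂ) (fun g => psi L θ g⁻¹) = 0 := by
  have hfe : Finite ((Fin n → F) →ₗ[F] (Fin n → F)) := DFunLike.finite _
  have hft : Fintype ((Fin n → F) →ₗ[F] (Fin n → F))ˣ := Fintype.ofFinite _
  have h1 := h.inner_odd (V := Fin n → F) (finrank_fin_eq hn) hp2 (hn ▸ he)
  rw [← classInner_comp (Matrix.GeneralLinearGroup.toLin : GL (Fin n) F ≃* _)] at h1
  rw [← h1]
  congr 1

end matrixGroup

end theta

/-! ### existence -/

/-- **Existence**: for `ord_p(q) = n` there is a multiplicative map of order `p` on the extension of degree `n`. -/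
theorem exists_theta_p (F : Type u) [Field F] [Finite F] (L : Type w) [Field L] [Finite L] [Algebra F L] {p : ℕ}
    [hp : Fact p.Prime] (hpF : ¬ p ∣ Nat.card F) (hord : orderOf (Nat.card F : ZMod p) = Module.finrank F L) :
    ∃ θ : L →*₀ ℂ, IsPTheta F p 1 θ := by
  obtain ⟨θ₀, hθ₀⟩ := exists_theta L
  have hcard : Nat.card Lˣ = Nat.card F ^ Module.finrank F L - 1 := by
    rw [Nat.card_units, Module.natCard_eq_pow_finrank (K := F) (V := L)]
  have hdvd : p ∣ Nat.card Lˣ := by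
    rw [hcard, ← ZMod.natCast_eq_zero_iff, Nat.cast_sub (Nat.one_le_pow _ _ Nat.card_pos)]
    push_cast
    rw [← hord, pow_orderOf_eq_one, sub_self]
  obtain ⟨m, hm⟩ := hdvd
  have hm0 : m ≠ 0 := by
    rintro rfl
    rw [mul_zero] at hm
    exact Nat.card_pos.ne' hm
  refine ⟨powTheta θ₀ m hm0, ?_, ?_, hord, hpF⟩
  · intro x hx
    rw [powTheta_apply, ← pow_mul, pow_one, mul_comm, ← hm, ← map_pow, pow_card_units hx, map_one]
  · obtain ⟨γ, hγ⟩ := IsCyclic.exists_ofOrder_eq_natCard (α := Lˣ)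
    refine ⟨γ, γ.ne_zero, fun h => ?_⟩
    rw [powTheta_apply, ← map_pow, ← map_one θ₀] at h
    have h1 : γ ^ m = 1 := Units.ext (by rw [Units.val_pow_eq_pow_val, Units.val_one]; exact hθ₀ h)
    have h2 := orderOf_dvd_of_pow_eq_one h1
    rw [hγ, hm] at h2
    have h3 := Nat.le_of_dvd (Nat.pos_of_ne_zero hm0) h2
    have h4 := hp.1.two_le
    have h5 : 2 * m ≤ p * m := Nat.mul_le_mul_right _ h4
    omega

end Cfsg.Agent.H551.HT
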