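import Cfsg.Agent.H551.HT.RhoField
import Cfsg.Agent.H477.HC.Cus
import Cfsg.Agent.H317.PQ.Defs

/-!
# S4933: existence of `rho` in the form used by the Harish-Chandra boxes (helper47, helper139)
-/

set_option autoImplicit false

open Polynomial Cfsg
open scoped ComplexConjugate MatrixGroups

namespace Cfsg.Agent.H551.HT

open Cfsg.Agent.H139.Cusp Cfsg.Agent.H53.HC Cfsg.Agent.H477.HC Cfsg.Agent.H317.PQ

universe u

/-- the common part -/
structure Rho (K : Type u) [Field K] (p n : ℕ) (c : IrrCharacter (GL (Fin n) K)) : Prop where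
  cusp : IsCusp (c : GL (Fin n) K → ℂ)
  mem : ∀ {M : Ideal AlgInt}, IsPModular p M → c ∈ principalBlock M (GL (Fin n) K)
  mem' : c ∈ B0 p (GL (Fin n) K)
  deg : (c : GL (Fin n) K → ℂ) 1 = ((∏ i ∈ Finset.Ico 1 n, (Nat.card K ^ i - 1) : ℕ) : ℂ)
  ndvd : ¬ p ∣ charDegree (c : GL (Fin n) K → ℂ)
  ne_one : (c : GL (Fin n) K → ℂ) ≠ fun _ => 1
  map : ∀ (τ : K ≃+* K) (m : ℕ), τ ^ p ^ m = 1 → ∀ A : GL (Fin n) K,
    (c : GL (Fin n) K → ℂ) (Matrix.GeneralLinearGroup.map (τ : K →+* K) A) = (c : GL (Fin n) K → ℂ) A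
  conj_iff : Even n → ∀ A : GL (Fin n) K, conj ((c : GL (Fin n) K → ℂ) A) = (c : GL (Fin n) K → ℂ) A

theorem map_id_eq {K : Type u} [Field K] {n : ℕ} (A : GL (Fin n) K) :
    ((Matrix.GeneralLinearGroup.map (RingHom.id K)).comp (invT n)) A = invT n A := by
  ext i j
  rfl

theorem exists_rho (K : Type u) [Field K] [Finite K] {p : ℕ} [hp : Fact p.Prime] (hpK : ¬ p ∣ Nat.card K) {n : ℕ}
    (hn : orderOf (Nat.card K : ZMod p) = n) :
    ∃ c : IrrCharacter (GL (Fin n) K), Rho K p n c ∧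
      (Even n → (c : GL (Fin n) K → ℂ) ∘ ((Matrix.GeneralLinearGroup.map (RingHom.id K)).comp (invT n)) = c) ∧
      (Odd n → p ≠ 2 → (c : GL (Fin n) K → ℂ) ∘ ((Matrix.GeneralLinearGroup.map (RingHom.id K)).comp (invT n)) ≠ c) := by
  classical
  have hu : (Nat.card K : ZMod p) ≠ 0 := by
    rw [Ne, ZMod.natCast_eq_zero_iff]
    exact hpK
  have hn0 : 0 < n := by
    rw [← hn, orderOf_pos_iff, isOfFinOrder_iff_pow_eq_one]
    exact ⟨p - 1, by have := hp.1.two_le; omega, ZMod.pow_card_sub_one_eq_one hu⟩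
  obtain ⟨L, _, _, _, hL⟩ := exists_L K n hn0
  obtain ⟨θ, h⟩ := exists_theta_p K L hpK (hn.trans hL.symm)
  have hfin : Finite (GL (Fin n) K) := inferInstance
  have hft : Fintype (GL (Fin n) K) := Fintype.ofFinite _
  have hone := h.psi_one hL
  refine ⟨⟨psi L θ, h.psi_isIrr hL⟩, ⟨psi_isCusp L θ, fun hM => h.psi_mem_principalBlock' hL hM,
    fun M hM => h.psi_mem_principalBlock' hL hM, ?_, ?_, ?_, fun τ m hτ A => h.psi_map τ hτ hL A,
    fun he A => h.psi_conj_even hL he A⟩, ?_, ?_⟩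
  · show psi L θ 1 = _
    rw [hone.1, degP_eq_Ico]
  · have h2 : charDegree (psi L θ : GL (Fin n) K → ℂ) = degP (Nat.card K) n :=
      Blocks.Basic.charDegree_of_eq hone.1
    show ¬ p ∣ charDegree (psi L θ : GL (Fin n) K → ℂ)
    rw [h2]
    exact hone.2
  · intro h1
    have h2 := h.psi_inner_one' hL
    have h3 : classInner (psi L θ : GL (Fin n) K → ℂ) (fun _ => 1) = 1 := by
      have h4 := Characters.Core.classInner_irr_self (h.psi_isIrr hL)
      have h5 : (psi L θ : GL (Fin n) K → ℂ) = fun _ => 1 := h1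
      rw [h5] at h4
      rw [h5]
      exact h4
    rw [h2] at h3
    exact zero_ne_one h3
  · intro he
    funext A
    show psi L θ (((Matrix.GeneralLinearGroup.map (RingHom.id K)).comp (invT n)) A) = psi L θ A
    rw [map_id_eq, psi_invT θ hL]
    exact h.psi_conj_even hL he A
  · intro ho hp2 h1
    have h2 : ∀ A : GL (Fin n) K, psi L θ A⁻¹ = psi L θ A := by
      intro A
      have h3 := congrFun h1 A
      change psi L θ (((Matrix.GeneralLinearGroup.map (RingHom.id K)).comp (invT n)) A) = psi L θ A at h3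
      rw [map_id_eq, psi_invT θ hL] at h3
      rw [← h3]
      have h4 := cusp_inv (V := Fin n → K) θ (finrank_fin_eq hL) (Matrix.GeneralLinearGroup.toLin A)
      rw [← map_inv] at h4
      exact h4
    have h3 := h.psi_inner_odd hL hp2 ho
    simp only [h2] at h3
    rw [Characters.Core.classInner_irr_self (h.psi_isIrr hL)] at h3
    exact one_ne_zero h3

end Cfsg.Agent.H551.HT
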