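import Cfsg.Agent.H551.HT.Rho

/-!
# S4933: invariance of `rho_θ`, `θ` of order `p`, under field automorphisms of `p`-power order
-/

set_option autoImplicit false
set_option linter.unusedSectionVars false

open Polynomial Cfsg
open scoped ComplexConjugate

namespace Cfsg.Agent.H551.HT

open Cfsg.Agent.H139.Cusp

universe u v v' w

attribute [local instance] fintypeHom fintypeSub finite_quot

section field

variable {K : Type u} [Field K] [Finite K]

/-- an automorphism of a finite field is a power map -/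
theorem exists_pow_of_ringEquiv {r : ℕ} [hr : Fact r.Prime] [CharP K r] (τ : K ≃+* K) : ∃ s : ℕ, ∀ x, τ x = x ^ r ^ s := by
  let _ : Algebra (ZMod r) K := ZMod.algebra K r
  have hT : (τ : K →+* K).comp (algebraMap (ZMod r) K) = algebraMap (ZMod r) K := Subsingleton.elim _ _
  let φ : K →ₐ[ZMod r] K := { toRingHom := (τ : K →+* K), commutes' := fun a => congrArg (fun f => f a) hT }
  obtain ⟨i, hi⟩ := (FiniteField.bijective_frobeniusAlgHom_pow (ZMod r) K).2 φ
  refine ⟨i.1, fun x => ?_⟩
  have h1 : φ x = (FiniteField.frobeniusAlgHom (ZMod r) K ^ i.1) x := by rw [← hi]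
  have h2 : φ x = τ x := rfl
  rw [← h2, h1, AlgHom.coe_pow, FiniteField.coe_frobeniusAlgHom, pow_iterate, ZMod.card]

theorem pow_eq_of_fixes {r k : ℕ} [hr : Fact r.Prime] [CharP K r] (h : ∀ x : K, x ^ r ^ k = x) :
    ∃ t, r ^ k = Nat.card K ^ t := by
  have : Fintype K := Fintype.ofFinite K
  obtain ⟨f, -, hf⟩ := FiniteField.card K r
  rw [← Nat.card_eq_fintype_card] at hf
  obtain ⟨γ, hγ⟩ := IsCyclic.exists_ofOrder_eq_natCard (α := Kˣ)
  have hcard : Nat.card Kˣ = r ^ (f : ℕ) - 1 := by rw [Nat.card_units, hf]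
  have h1 : γ ^ (r ^ k - 1) = 1 := by
    apply Units.ext
    rw [Units.val_pow_eq_pow_val, Units.val_one]
    apply mul_right_cancel₀ γ.ne_zero
    rw [← pow_succ, Nat.sub_add_cancel (Nat.one_le_pow _ _ hr.1.pos), one_mul]
    exact h _
  have h2 := orderOf_dvd_of_pow_eq_one h1
  rw [hγ, hcard] at h2
  have h3 := Nat.pow_sub_one_gcd_pow_sub_one r (f : ℕ) k
  rw [Nat.gcd_eq_left h2] at h3
  have h4 : r ^ (f : ℕ) = r ^ Nat.gcd f k := by
    have h5 := Nat.one_le_pow (f : ℕ) _ hr.1.pos
    have h6 := Nat.one_le_pow (Nat.gcd f k) _ hr.1.pos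
    omega
  have h5 := Nat.pow_right_injective hr.1.two_le h4
  obtain ⟨t, ht⟩ := Nat.gcd_eq_left_iff_dvd.1 h5.symm
  exact ⟨t, by rw [hf, ← pow_mul, ← ht]⟩

/-- **Field automorphisms of `p`-power order** are power maps with exponent a power of `q` modulo `p`. -/
theorem exists_exponent {p : ℕ} [hp : Fact p.Prime] (τ : K ≃+* K) {m : ℕ} (hτ : τ ^ p ^ m = 1) :
    ∃ r s t : ℕ, r.Prime ∧ CharP K r ∧ (∀ x, τ x = x ^ r ^ s) ∧ ((r ^ s : ℕ) : ZMod p) = (Nat.card K : ZMod p) ^ t := by
  obtain ⟨r, hr⟩ := CharP.exists K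
  have hrp : r.Prime := CharP.char_is_prime K r
  have : Fact r.Prime := ⟨hrp⟩
  obtain ⟨s, hs⟩ := exists_pow_of_ringEquiv (r := r) τ
  have h1 : ∀ (k : ℕ) (x : K), (τ ^ k) x = x ^ r ^ (s * k) := by
    intro k
    induction k with
    | zero => intro x; rw [pow_zero, mul_zero, pow_zero, pow_one]; rfl
    | succ k ih =>
      intro x
      rw [pow_succ, RingAut.mul_apply, ih, hs, ← pow_mul, ← pow_add, mul_add, mul_one, add_comm]
  have h2 : ∀ x : K, x ^ r ^ (s * p ^ m) = x := by
    intro x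
    rw [← h1, hτ]
    rfl
  obtain ⟨t, ht⟩ := pow_eq_of_fixes h2
  refine ⟨r, s, t, hrp, hr, hs, ?_⟩
  have h3 : ((r ^ (s * p ^ m) : ℕ) : ZMod p) = ((Nat.card K ^ t : ℕ) : ZMod p) := by rw [ht]
  rw [pow_mul] at h3
  push_cast at h3 ⊢
  rw [← h3]
  exact (ZMod.pow_card_pow _).symm

variable {L : Type w} [Field L] [Finite L] [Algebra K L]

/-- **Invariance** of the cuspidal class function under semilinear maps. -/
theorem IsPTheta.semilinear {p : ℕ} [hp : Fact p.Prime] {θ : L →*₀ ℂ} (h : IsPTheta K p 1 θ) (τ : K ≃+* K) {m : ℕ}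
    (hτ : τ ^ p ^ m = 1) {V : Type v} [AddCommGroup V] [Module K V] [Finite V]
    {V' : Type v'} [AddCommGroup V'] [Module K V'] [Finite V'] (hV : Module.finrank K V = Module.finrank K L)
    (e : V ≃+ V') (he : ∀ (c : K) (v : V), e (c • v) = τ c • e v)
    (g : (V →ₗ[K] V)ˣ) {g' : V' →ₗ[K] V'} (hg : ∀ v, g' (e v) = e ((g : V →ₗ[K] V) v)) :
    cusp L θ g' = cusp L θ (g : V →ₗ[K] V) := by
  obtain ⟨r, s, t, hr, hch, hs, ht⟩ := exists_exponent (p := p) τ hτ
  have : Fact r.Prime := ⟨hr⟩
  have hchL : CharP L r := charP_of_injective_algebraMap (algebraMap K L).injective r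
  -- the extension
  have hbij : Function.Bijective (iterateFrobenius L r s) :=
    Finite.injective_iff_bijective.1 (iterateFrobenius L r s).injective
  let σ : L ≃+* L := RingEquiv.ofBijective (iterateFrobenius L r s) hbij
  have hσ : ∀ x, σ x = x ^ r ^ s := fun x => iterateFrobenius_def r s x
  let θ' : L →*₀ ℂ :=
    { toFun := fun x => θ (σ.symm x)
      map_zero' := by rw [map_zero, map_zero]
      map_one' := by rw [map_one, map_one]
      map_mul' := fun x y => by rw [map_mul, map_mul] }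
  have hθ' : ∀ x, θ' (σ x) = θ x := fun x => by
    show θ (σ.symm (σ x)) = θ x
    rw [RingEquiv.symm_apply_apply]
  have h1 : cusp L θ' g' = cusp L θ (g : V →ₗ[K] V) :=
    cusp_semilinear τ e he hg σ (fun c => by rw [hσ, hs, map_pow]) hθ' hV
  rw [← h1]
  -- `θ'` is a Frobenius conjugate of `θ`
  set n := Module.finrank K L with hn
  have hn0 : 0 < n := Module.finrank_pos
  have hq : (Nat.card K : ZMod p) ^ n = 1 := by rw [hn, ← h.ord]; exact pow_orderOf_eq_one _
  have key : ∀ x : L, θ' x = θ (x ^ Nat.card K ^ ((n - t % n) % n)) := by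
    intro x
    obtain ⟨y, rfl⟩ := σ.surjective x
    rw [hθ', hσ, ← pow_mul]
    by_cases hy : y = 0
    · rw [hy, zero_pow (mul_pos (pow_pos hr.pos _) (pow_pos Nat.card_pos _)).ne', map_zero]
    · rw [map_pow]
      have h2 : θ y ^ p = 1 := by
        have := h.pow y hy
        rwa [pow_one] at this
      have h3 : (r ^ s * Nat.card K ^ ((n - t % n) % n)) ≡ 1 [MOD p] := by
        rw [← ZMod.natCast_eq_natCast_iff, Nat.cast_mul, ht, Nat.cast_pow, ← pow_add, Nat.cast_one]
        have h4 : ∃ c, t + (n - t % n) % n = n * c := by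
          have h5 := Nat.mod_add_div t n
          have h6 := Nat.mod_lt t hn0
          rcases Nat.eq_zero_or_pos (t % n) with h7 | h7
          · rw [h7, Nat.sub_zero, Nat.mod_self, add_zero]
            exact Nat.dvd_of_mod_eq_zero h7
          · rw [Nat.mod_eq_of_lt (show n - t % n < n by omega)]
            refine ⟨t / n + 1, ?_⟩
            rw [mul_add, mul_one]
            omega
        obtain ⟨c, hc⟩ := h4
        rw [hc, pow_mul, hq, one_pow]
      rw [pow_eq_pow_of_modEq h3 h2, pow_one]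
  have hfin : Finite (V' →ₗ[K] V') := DFunLike.finite _
  have hV' : Module.finrank K V' = n := by
    have h5 := finrank_semilinear τ e
    rw [h5, hV]
  -- `g'` is a unit
  have hu : IsUnit g' := by
    rw [LinearMap.isUnit_iff_ker_eq_bot, LinearMap.ker_eq_bot']
    intro x hx
    obtain ⟨v, rfl⟩ := e.surjective x
    rw [hg, e.map_eq_zero_iff] at hx
    have h6 : v = 0 := by
      have h7 := congrArg ((g⁻¹ : (V →ₗ[K] V)ˣ) : V →ₗ[K] V) hx
      rw [map_zero, ← Module.End.mul_apply, ← Units.val_mul, inv_mul_cancel] at h7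
      exact h7
    rw [h6, map_zero]
  obtain ⟨g₁, rfl⟩ := hu
  exact (cusp_eq_iff θ θ' hV' h.regular).2 ⟨(n - t % n) % n, Nat.mod_lt _ hn0, key⟩ g₁

open scoped MatrixGroups in
/-- **Invariance** of `psi` under field automorphisms of `p`-power order. -/
theorem IsPTheta.psi_map {p : ℕ} [hp : Fact p.Prime] {θ : L →*₀ ℂ} (h : IsPTheta K p 1 θ) (τ : K ≃+* K) {m : ℕ}
    (hτ : τ ^ p ^ m = 1) {n : ℕ} (hn : Module.finrank K L = n) (A : GL (Fin n) K) :
    psi L θ (Matrix.GeneralLinearGroup.map (τ : K →+* K) A) = psi L θ A := by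
  let e : (Fin n → K) ≃+ (Fin n → K) :=
    { toFun := fun v i => τ (v i)
      invFun := fun v i => τ.symm (v i)
      left_inv := fun v => by funext i; exact τ.symm_apply_apply _
      right_inv := fun v => by funext i; exact τ.apply_symm_apply _
      map_add' := fun v w => by funext i; exact map_add τ _ _ }
  refine h.semilinear τ hτ (V := Fin n → K) (V' := Fin n → K) (finrank_fin_eq hn) e ?_
    (Matrix.GeneralLinearGroup.toLin A) ?_
  · intro c v
    funext i
    exact map_mul τ _ _
  · intro v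
    funext i
    show (Matrix.toLin' ((Matrix.GeneralLinearGroup.map (τ : K →+* K) A : GL (Fin n) K) : Matrix (Fin n) (Fin n) K))
      (e v) i = τ ((Matrix.toLin' (A : Matrix (Fin n) (Fin n) K)) v i)
    rw [Matrix.toLin'_apply, Matrix.toLin'_apply, Matrix.mulVec, Matrix.mulVec, dotProduct, dotProduct, map_sum]
    refine Finset.sum_congr rfl fun j _ => ?_
    rw [map_mul]
    rfl

end field

end Cfsg.Agent.H551.HT
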